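import Cfsg.Agent.H274.OT.BT
import Cfsg.Agent.H3.OT.Weyl
import Cfsg.Agent.S1039
import Cfsg.Agent.S1092
import Cfsg.Agent.S1093

/-!
# S2539: indices (helper412)

`relIndex_dvd` : `|N : T|` divides `696729600` (the order of `W(E8)`).
`MF_norm`, `MF_index` : `D_F T` is normal in `M = D_F N_F(T)` and `|M : D_F T|` divides `696729600`.
-/

set_option autoImplicit false

namespace Cfsg.Agent.H412.OT

open Cfsg.Lie Cfsg.Agent.ChevalleyStructure Cfsg.Agent.ChevalleyStructure.Elts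

universe u

section Abs

variable {G : Type*} [Group G] {T D M : Subgroup G}

theorem abs_norm (hMD : M ≤ Subgroup.normalizer (D : Set G))
    (hM : M ≤ D ⊔ (M ⊓ Subgroup.normalizer (T : Set G))) :
    M ≤ Subgroup.normalizer ((T ⊔ D : Subgroup G) : Set G) := by
  refine hM.trans (sup_le (le_sup_right.trans Subgroup.le_normalizer) ?_)
  intro m hm
  have key : ∀ m ∈ M ⊓ Subgroup.normalizer (T : Set G), (T ⊔ D : Subgroup G) ≤
      (T ⊔ D).comap (MulAut.conj m).toMonoidHom := by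
    intro m hm
    refine sup_le (fun x hx => ?_) (fun x hx => ?_)
    · exact Subgroup.mem_sup_left ((Subgroup.mem_normalizer_iff.1 hm.2 x).1 hx)
    · exact Subgroup.mem_sup_right ((Subgroup.mem_normalizer_iff.1 (hMD hm.1) x).1 hx)
  rw [Subgroup.mem_normalizer_iff]
  intro x
  refine ⟨fun hx => key m hm hx, fun hx => ?_⟩
  have h1 : m⁻¹ * (m * x * m⁻¹) * m⁻¹⁻¹ ∈ T ⊔ D := key m⁻¹ (inv_mem hm) hx
  have h2 : m⁻¹ * (m * x * m⁻¹) * m⁻¹⁻¹ = x := by group
  rwa [h2] at h1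

theorem abs_index [Finite G] (hTM : T ≤ M) (hDM : D ≤ M) (hMD : M ≤ Subgroup.normalizer (D : Set G))
    (hM : M ≤ D ⊔ (M ⊓ Subgroup.normalizer (T : Set G))) :
    (T ⊔ D).relIndex M ∣ T.relIndex (M ⊓ Subgroup.normalizer (T : Set G)) := by
  have hle : T ⊔ D ≤ M := sup_le hTM hDM
  have hn : ((T ⊔ D).subgroupOf M).Normal := by
    constructor
    intro x hx y
    exact (Subgroup.mem_normalizer_iff.1 (abs_norm hMD hM y.2) _).1 hx
  set P := M ⊓ Subgroup.normalizer (T : Set G) with hP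
  have hPM : P ≤ M := inf_le_left
  have htop : P.subgroupOf M ⊔ (T ⊔ D).subgroupOf M = ⊤ := by
    rw [← Subgroup.subgroupOf_sup hPM hle, Subgroup.subgroupOf_eq_top]
    refine hM.trans (sup_le (le_sup_right.trans le_sup_right) le_sup_left)
  have h1 : (T ⊔ D).relIndex M = (T ⊔ D).relIndex P := by
    rw [← Subgroup.relIndex_subgroupOf (H := T ⊔ D) hPM, ← Subgroup.relIndex_sup_right (K := (T ⊔ D).subgroupOf M),
      htop, Subgroup.relIndex_top_right]
    rfl
  rw [h1]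
  exact Subgroup.relIndex_dvd_of_le_left _ le_sup_left

end Abs

variable {D : ChevalleyDatum} {K : Type u} [Field K]

/-- `|N : T|` divides `|W(E8)|` -/
theorem relIndex_dvd (hD : D ∈ [chevG2, chevD4, chevF4, chevE6, chevE7, chevE8]) :
    (D.diagonalSubgroup K).relIndex (D.monomialSubgroup K) ∣ 696729600 := by
  have key : ∀ (p : ChevalleyDatum × (Σ n : ℕ, CoxeterMatrix (Fin n))),
      p ∈ [(chevG2, (⟨2, CoxeterMatrix.G₂⟩ : Σ n : ℕ, CoxeterMatrix (Fin n))), (chevB2, ⟨2, CoxeterMatrix.B 2⟩),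
        (chevD4, ⟨4, coxeterD4⟩), (chevF4, ⟨4, CoxeterMatrix.F₄⟩),
        (chevE6, ⟨6, CoxeterMatrix.E₆⟩), (chevE7, ⟨7, CoxeterMatrix.E₇⟩), (chevE8, ⟨8, CoxeterMatrix.E₈⟩)] →
      (p.1.diagonalSubgroup K).relIndex (p.1.monomialSubgroup K) = Nat.card p.2.2.Group := by
    intro p hp
    obtain ⟨φ, h1, h2, -⟩ := Cfsg.Agent.S1039.result (F := K) p hp
    rw [Subgroup.relIndex, ← h2, Subgroup.index_ker, MonoidHom.range_eq_top.2 h1, Subgroup.card_top]
  simp only [List.mem_cons, List.not_mem_nil, or_false] at hD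
  rcases hD with rfl | rfl | rfl | rfl | rfl | rfl
  · rw [key (chevG2, ⟨2, CoxeterMatrix.G₂⟩) (by simp), Cfsg.Agent.S1092.result (⟨2, CoxeterMatrix.G₂⟩, 12) (by simp)]
    norm_num
  · rw [key (chevD4, ⟨4, coxeterD4⟩) (by simp), Cfsg.Agent.S1092.result (⟨4, coxeterD4⟩, 192) (by simp)]
    norm_num
  · rw [key (chevF4, ⟨4, CoxeterMatrix.F₄⟩) (by simp), Cfsg.Agent.S1092.result (⟨4, CoxeterMatrix.F₄⟩, 1152) (by simp)]
    norm_num
  · rw [key (chevE6, ⟨6, CoxeterMatrix.E₆⟩) (by simp), Cfsg.Agent.S1093.result (⟨6, CoxeterMatrix.E₆⟩, 51840) (by simp)]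
    norm_num
  · rw [key (chevE7, ⟨7, CoxeterMatrix.E₇⟩) (by simp), Cfsg.Agent.S1093.result (⟨7, CoxeterMatrix.E₇⟩, 2903040) (by simp)]
    norm_num
  · rw [key (chevE8, ⟨8, CoxeterMatrix.E₈⟩) (by simp), Cfsg.Agent.S1093.result (⟨8, CoxeterMatrix.E₈⟩, 696729600) (by simp)]

variable [Fintype K] {p : ℕ}

/-- `|N_F(T) : T|` divides `|W(E8)|` -/
theorem relIndex_norm_dvd (h : Hyp K p D) {F : Subgroup (GL D.Idx K)} (hTF : D.diagonalSubgroup K ≤ F)
    (hFG : F ≤ D.group K) :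
    (D.diagonalSubgroup K).relIndex (F ⊓ Subgroup.normalizer (D.diagonalSubgroup K : Set (GL D.Idx K))) ∣
      696729600 := by
  refine Dvd.dvd.trans ?_ (relIndex_dvd (K := K) h.mem)
  have h13 := Cfsg.Agent.H274.OT.card13 h
  have h1 : F ⊓ Subgroup.normalizer (D.diagonalSubgroup K : Set (GL D.Idx K)) ≤ D.monomialSubgroup K :=
    fun g hg => Cfsg.Agent.H3.OT.mem_monomial_of_norm h.inList (by omega) (hFG hg.1) hg.2
  rw [← Subgroup.relIndex_mul_relIndex _ _ _ (le_inf hTF (tor_le_norm D K)) h1]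
  exact Dvd.intro _ rfl

theorem MF_le_normalizer_DF (h : Hyp K p D) {F : Subgroup (GL D.Idx K)} (hFG : F ≤ D.group K) :
    MF D K F ≤ Subgroup.normalizer (DF D K F : Set (GL D.Idx K)) :=
  sup_le Subgroup.le_normalizer (Cfsg.Agent.H274.OT.norm_le_normalizer_DF h hFG)

omit [Fintype K] in
theorem MF_le_sup (F : Subgroup (GL D.Idx K)) : MF D K F ≤ DF D K F ⊔
    (MF D K F ⊓ Subgroup.normalizer (D.diagonalSubgroup K : Set (GL D.Idx K))) :=
  sup_le le_sup_left ((le_inf (norm_le_MF F) inf_le_right).trans le_sup_right)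

/-- `T D_F` is normal in `M` -/
theorem MF_norm (h : Hyp K p D) {F : Subgroup (GL D.Idx K)} (hFG : F ≤ D.group K) :
    MF D K F ≤ Subgroup.normalizer ((D.diagonalSubgroup K ⊔ DF D K F : Subgroup (GL D.Idx K)) : Set (GL D.Idx K)) :=
  abs_norm (MF_le_normalizer_DF h hFG) (MF_le_sup F)

theorem MF_normal (h : Hyp K p D) {F : Subgroup (GL D.Idx K)} (hFG : F ≤ D.group K) :
    ((D.diagonalSubgroup K ⊔ DF D K F).subgroupOf (MF D K F)).Normal := by
  constructor
  intro x hx y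
  exact (Subgroup.mem_normalizer_iff.1 (MF_norm h hFG y.2) _).1 hx

/-- `|M : T D_F|` divides `|W(E8)|` -/
theorem MF_index (h : Hyp K p D) {F : Subgroup (GL D.Idx K)} (hTF : D.diagonalSubgroup K ≤ F)
    (hFG : F ≤ D.group K) : (D.diagonalSubgroup K ⊔ DF D K F).relIndex (MF D K F) ∣ 696729600 := by
  have hfin : Finite (GL D.Idx K) := inferInstance
  exact (abs_index (tor_le_MF hTF) (DF_le_MF F) (MF_le_normalizer_DF h hFG) (MF_le_sup F)).trans
    (relIndex_norm_dvd h (tor_le_MF hTF) ((MF_le F).trans hFG))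

end Cfsg.Agent.H412.OT
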