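import Cfsg.Agent.H412.OT.Opp
import Cfsg.Agent.H249.OT.NoAdj
import Cfsg.Agent.H927.SzLong

/-!
# S2539, part 1: a least non-good `F` contains no long root subgroup `X_r` (helper412, helper249, helper927)
-/

set_option autoImplicit false

namespace Cfsg.Agent.H412.OT

open Cfsg.Lie Cfsg.Agent.ChevalleyStructure Cfsg.Agent.ChevalleyStructure.Elts

universe u

variable {D : ChevalleyDatum} {K : Type u} [Field K] [Fintype K] {F : Subgroup (GL D.Idx K)} {p : ℕ}

/-- **Part 1** -/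
theorem no_long [Fact p.Prime] [CharP K p] (h : Hyp K p D) (hF : MinBad D K F) {r : ℕ} (hr : IsLong D r) :
    ¬ D.rootSubgroup K r ≤ F := by
  intro hX
  have hr' := (Cfsg.Agent.H927.Sz.isLong_iff' h.mem).1 hr
  have hlr := hr'.lr h.inList K
  obtain ⟨f, hf, ho⟩ := hF.exists_opp h hlr hX
  exact Cfsg.Agent.H249.OT.no_adj h hF hr' hX (B := Cfsg.Agent.H927.Sz.cj f (D.rootSubgroup K r))
    ⟨hX, Cfsg.Agent.H927.Sz.cj_le_of_mem hf hX, ho⟩

/-- `S_F` contains no long root -/
theorem not_mem_SF_of_long [Fact p.Prime] [CharP K p] (h : Hyp K p D) (hF : MinBad D K F) {r : ℕ}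
    (hr : IsLong D r) : r ∉ SF D K F := fun hm => no_long h hF hr hm.2

end Cfsg.Agent.H412.OT
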