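import Cfsg.Agent.H927.SzPGrp
import Cfsg.Agent.H274.OT.BT
import Cfsg.Agent.Involutions.BaerSuzuki

/-!
# S2539, part 1: a long root subgroup of `F` is opposite to one of its `F`-conjugates (helper412)
-/

set_option autoImplicit false

namespace Cfsg.Agent.H412.OT

open Cfsg.Lie Cfsg.Agent.ChevalleyStructure Cfsg.Agent.ChevalleyStructure.Elts Cfsg.Agent.H927.Sz
  Cfsg.Agent.H86.Lev Cfsg.Agent.H86.Graded Cfsg.Agent.H86.Par

universe u

/-- Baer–Suzuki inside a subgroup `F` with `O_p(F) = 1` -/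
theorem exists_not_isPGroup {G : Type*} [Group G] [Finite G] {p : ℕ} [Fact p.Prime] {F A : Subgroup G}
    (hAF : A ≤ F) (hne : A ≠ ⊥)
    (hop : ∀ Q : Subgroup G, Q ≤ F → IsPGroup p Q → F ≤ Subgroup.normalizer (Q : Set G) → Q = ⊥) :
    ∃ f ∈ F, ¬ IsPGroup p (A ⊔ A.map (MulAut.conj f).toMonoidHom : Subgroup G) := by
  by_contra hcon
  push Not at hcon
  have hX : ∀ g : F, IsPGroup p (A.subgroupOf F ⊔ (A.subgroupOf F).map (MulAut.conj g).toMonoidHom :
      Subgroup F) := by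
    intro g
    have h1 := hcon g g.2
    have h2 : (A.subgroupOf F ⊔ (A.subgroupOf F).map (MulAut.conj g).toMonoidHom : Subgroup F) ≤
        (A ⊔ A.map (MulAut.conj (g : G)).toMonoidHom).subgroupOf F := by
      refine sup_le ?_ ?_
      · intro x hx
        exact Subgroup.mem_subgroupOf.2 (Subgroup.mem_sup_left (Subgroup.mem_subgroupOf.1 hx))
      · rintro _ ⟨x, hx, rfl⟩
        refine Subgroup.mem_subgroupOf.2 (Subgroup.mem_sup_right ?_)
        exact ⟨x, Subgroup.mem_subgroupOf.1 hx, rfl⟩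
    exact (h1.comap_of_injective F.subtype F.subtype_injective).to_le h2
  have h3 := Cfsg.Agent.Involutions.BaerSuzuki.baer_suzuki_subgroup (A.subgroupOf F) hX
  have h4 : (Subgroup.normalClosure ((A.subgroupOf F : Subgroup F) : Set F)).map F.subtype = ⊥ := by
    refine hop _ ?_ (h3.map _) ?_
    · rintro _ ⟨x, -, rfl⟩
      exact x.2
    · intro x hx
      rw [Subgroup.mem_normalizer_iff]
      have key : ∀ y ∈ F, ∀ z : G,
          z ∈ (Subgroup.normalClosure ((A.subgroupOf F : Subgroup F) : Set F)).map F.subtype →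
          y * z * y⁻¹ ∈ (Subgroup.normalClosure ((A.subgroupOf F : Subgroup F) : Set F)).map F.subtype := by
        rintro y hy _ ⟨z, hz, rfl⟩
        exact ⟨⟨y, hy⟩ * z * ⟨y, hy⟩⁻¹, Subgroup.normalClosure_normal.conj_mem z hz ⟨y, hy⟩, rfl⟩
      intro z
      constructor
      · exact key x hx z
      · intro hz
        have := key x⁻¹ (inv_mem hx) _ hz
        simpa [mul_assoc] using this
  refine hne ?_
  rw [eq_bot_iff, ← h4]
  intro x hx
  exact ⟨⟨x, hAF hx⟩, Subgroup.subset_normalClosure (Subgroup.mem_subgroupOf.2 hx), rfl⟩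

variable {D : ChevalleyDatum} {K : Type u} [Field K]

theorem LR_ne_bot (hD : InList D) {A : Subgroup (GL D.Idx K)} (hA : LR D K A) : A ≠ ⊥ := by
  obtain ⟨g, hg, rfl⟩ := hA
  intro e
  have h2 := congrArg (Cfsg.Agent.H927.Sz.cj g⁻¹) e
  rw [cj_inv_cj] at h2
  have h3 : Cfsg.Agent.H927.Sz.cj g⁻¹ (⊥ : Subgroup (GL D.Idx K)) = ⊥ := Subgroup.map_bot _
  exact Cfsg.Agent.H274.OT.root_ne_bot (K := K) hD (top_lt hD) (h2.trans h3)

/-- **a long root subgroup `A ≤ F` is opposite to an `F`-conjugate** (Baer–Suzuki, `O_p(F) = 1`) -/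
theorem MinBad.exists_opp [Fintype K] {F : Subgroup (GL D.Idx K)} {p : ℕ} [Fact p.Prime] [CharP K p]
    (hF : MinBad D K F) (h : Hyp K p D)
    {A : Subgroup (GL D.Idx K)} (hA : LR D K A) (hAF : A ≤ F) :
    ∃ f ∈ F, Opp A (Cfsg.Agent.H927.Sz.cj f A) := by
  have hfin : Finite (GL D.Idx K) := inferInstance
  obtain ⟨f, hf, h1⟩ := exists_not_isPGroup (p := p) hAF (LR_ne_bot h.inList hA)
    (fun Q h1 h2 h3 => hF.op h h1 h2 h3)
  refine ⟨f, hf, ?_⟩
  by_contra h2
  exact h1 (isPGroup_of_not_opp h.inList p hA (hA.cj (hF.le hf)) h2)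

end Cfsg.Agent.H412.OT
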